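import Mathlib

/-! Arithmetic of the order formula (plan, section Main). -/

set_option autoImplicit false

namespace Cfsg.Lib.SCS

theorem ar0 {g n c P s μ : ℤ} (c0 : 0 < c) (n0 : 0 < n) (h : g * (P - s) ^ 2 = n * c ^ 2 * P * (P + 1))
    (g0 : 0 < g) (d1 : P ∣ g) (d2 : P + 1 ∣ g) (hn : n ∣ P - 1) (ho : Odd n) (hg : g = n * 2 * (1 + n * μ)) :
    ∃ m : ℤ, g = n * P * (P + 1) * m ^ 2 ∧ c = (P - s) * m ∧ n ∣ m ^ 2 - 1 := by
  obtain ⟨k, hk⟩ := hn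
  obtain ⟨j, hj⟩ := ho
  have p1 : IsCoprime n P := ⟨-k, 1, by linear_combination hk⟩
  have p2 : IsCoprime n (P + 1) := ⟨1 + j * k, -j, by linear_combination hj - j * hk⟩
  have p3 : IsCoprime P (P + 1) := ⟨-1, 1, by ring⟩
  obtain ⟨q, hq⟩ := (p2.mul_left p3).mul_dvd (p1.mul_dvd ⟨_, hg.trans (mul_assoc _ _ _)⟩ d1) d2
  have z : n * P * (P + 1) ≠ 0 := fun e => by rw [e, zero_mul] at hq; omega
  have e : c ^ 2 = (P - s) ^ 2 * q := mul_left_cancel₀ z (by rw [hq] at h; linear_combination -h)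
  obtain ⟨m, hm⟩ := (Int.pow_dvd_pow_iff two_ne_zero).1 ⟨q, e⟩
  have s0 : (P - s) ^ 2 ≠ 0 := fun e' => by rw [e', zero_mul] at e; nlinarith
  have e2 : q = m ^ 2 := mul_left_cancel₀ s0 (by rw [← e, hm]; ring)
  refine ⟨m, e2 ▸ hq, hm, ?_⟩
  have e3 : P * (P + 1) * m ^ 2 = 2 * (1 + n * μ) :=
    mul_left_cancel₀ n0.ne' (by rw [← e2]; linear_combination hg - hq)
  have p4 : IsCoprime n 2 := ⟨1, -j, by linear_combination hj⟩
  refine p4.dvd_of_dvd_mul_left ⟨2 * μ - k * (P + 2) * m ^ 2, ?_⟩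
  linear_combination e3 - (P + 2) * m ^ 2 * hk

theorem ar_bd {M U m : ℤ} (U0 : U ≠ 0) :
    (M - 1) * (U * m) ^ 2 ≤ (M * U - 1) * U * m ^ 2 ∧ (M * U - 1) * U * m ^ 2 ≤ (M + 1) * (U * m) ^ 2 := by
  have h1 : 0 ≤ U ^ 2 - U := by rcases lt_or_gt_of_ne U0 with h | h <;> nlinarith
  have h2 : 0 ≤ U ^ 2 + U := by rcases lt_or_gt_of_ne U0 with h | h <;> nlinarith
  constructor <;> nlinarith [mul_nonneg h1 (sq_nonneg m), mul_nonneg h2 (sq_nonneg m)]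

theorem ar5 {g P m M : ℤ} (h : g = 5 * P * (P + 1) * m ^ 2) (hm : 5 ∣ m ^ 2 - 1) (hM : M ∣ P + 1) (M0 : 17 ≤ M)
    (l : (5 * M) ^ 2 < g) (u : g ≤ 75 * M ^ 2) (h9 : 9 ∣ g) (h3 : ¬ 3 ∣ M) : False := by
  obtain ⟨U, hU⟩ := hM
  obtain rfl : P = M * U - 1 := by omega
  have U0 : U ≠ 0 := by rintro rfl; simp at h; nlinarith
  obtain ⟨b1, b2⟩ := ar_bd (M := M) (m := m) U0
  have e : g = 5 * M * ((M * U - 1) * U * m ^ 2) := by rw [h]; ring
  generalize (M * U - 1) * U * m ^ 2 = w at b1 b2 e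
  have w1 : 5 * M < w := by nlinarith
  have w2 : w ≤ 15 * M := by nlinarith
  have a1 : (U * m) ^ 2 < 4 ^ 2 := by nlinarith
  have a2 : 2 ^ 2 < (U * m) ^ 2 := by nlinarith
  have a3 := abs_lt.1 (sq_lt_sq.1 a1)
  have a5 : U * m = 3 ∨ U * m = -3 := by
    generalize U * m = k at a1 a2 a3
    norm_num at a3
    obtain ⟨a3, a4⟩ := a3
    interval_cases k <;> simp_all
  have a6 : m ∣ 3 := by rcases a5 with e | e; exacts [⟨U, by linarith⟩, ⟨-U, by linarith⟩]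
  have a7 := Int.le_of_dvd (by norm_num) a6
  have a8 := Int.le_of_dvd (by norm_num) ((neg_dvd).2 a6)
  have a9 : m = 1 ∨ m = -1 := by
    have : -3 ≤ m := by omega
    interval_cases m <;> simp_all
  have a10 : U = 3 ∨ U = -3 := by rcases a9 with rfl | rfl <;> omega
  have m2 : m ^ 2 = 1 := by rcases a9 with rfl | rfl <;> norm_num
  rw [m2] at h
  obtain ⟨k, hk⟩ := h9
  have p3 : Prime (3 : ℤ) := Int.prime_three
  rcases a10 with rfl | rfl
  · have : (3 : ℤ) ∣ M * (5 * (M * 3 - 1)) := ⟨k, by nlinarith⟩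
    rcases p3.dvd_or_dvd this with d | d <;> omega
  · have : (3 : ℤ) ∣ M * (5 * (M * -3 - 1)) := ⟨-k, by nlinarith⟩
    rcases p3.dvd_or_dvd this with d | d <;> omega

theorem ar7 {g c P s m M : ℤ} (h : g = 7 * P * (P + 1) * m ^ 2) (hc : c = (P - s) * m) (hm : 7 ∣ m ^ 2 - 1)
    (hM : M ∣ P + 1) (M0 : 81 ≤ M) (g0 : 0 < g) (u : g ≤ 147 * M ^ 2) (cg : c ∣ g) (c7 : IsCoprime c 7)
    (cM : IsCoprime c M) (hs : s * (s + 1) < c) (c5 : 5 ∣ c) (c25 : ¬ 25 ∣ c) (g25 : 25 ∣ g) : False := by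
  obtain ⟨U, hU⟩ := hM
  have hP : P = M * U - 1 := by omega
  have U0 : U ≠ 0 := by rintro rfl; rw [hU] at h; simp at h; omega
  obtain ⟨b1, -⟩ := ar_bd (M := M) (m := m) U0
  have e : g = 7 * M * ((M * U - 1) * U * m ^ 2) := by rw [h, hP]; ring
  generalize (M * U - 1) * U * m ^ 2 = w at b1 e
  have w2 : w ≤ 21 * M := by nlinarith
  have a1 : (U * m) ^ 2 < 25 := by nlinarith
  have a0 : 1 ≤ U ^ 2 := by rcases lt_or_gt_of_ne U0 with h | h <;> nlinarith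
  have a2 : m ^ 2 < 5 ^ 2 := by nlinarith [sq_nonneg m]
  have a3 := abs_lt.1 (sq_lt_sq.1 a2)
  have a9 : m = 1 ∨ m = -1 := by
    norm_num at a3
    obtain ⟨a3, a4⟩ := a3
    interval_cases m <;> simp_all
  have m2 : m ^ 2 = 1 := by rcases a9 with rfl | rfl <;> norm_num
  rw [m2] at h
  have d1 : c ∣ P * (P + 1) := c7.dvd_of_dvd_mul_left (by rw [h] at cg; simpa only [mul_one, mul_assoc] using cg)
  have d2 : c ∣ P - s := by rcases a9 with rfl | rfl; exacts [⟨1, by linarith⟩, ⟨-1, by linarith⟩]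
  have d3 : c ∣ s * (s + 1) := by
    have := dvd_sub d1 (d2.mul_right (P + s + 1))
    rwa [show P * (P + 1) - (P - s) * (P + s + 1) = s * (s + 1) by ring] at this
  have s0 : 0 ≤ s * (s + 1) := by rcases le_or_gt 0 s with h | h <;> nlinarith
  have s1 : s * (s + 1) = 0 := Int.eq_zero_of_dvd_of_nonneg_of_lt s0 hs d3
  have d4 : P - s ∣ c := ⟨m, hc⟩
  rcases mul_eq_zero.1 s1 with rfl | e1
  · rw [sub_zero] at d2 d4
    have f5 := c5.trans d2
    have p : IsCoprime (25 : ℤ) (7 * (P + 1)) := by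
      refine IsCoprime.mul_right (by norm_num) ?_
      obtain ⟨k, hk⟩ := f5
      exact IsCoprime.pow_left (m := 2) (x := 5) (y := P + 1) ⟨-k, 1, by linarith⟩
    exact c25 ((p.dvd_of_dvd_mul_left (by rw [h] at g25; rwa [show 7 * (P + 1) * P = 7 * P * (P + 1) * 1 by ring])).trans d4)
  · have : M ∣ c := (show M ∣ P - s from ⟨U, by omega⟩).trans d4
    have := Int.isUnit_iff.1 (cM.isUnit_of_dvd' this dvd_rfl)
    omega

end Cfsg.Lib.SCS
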